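import Mathlib
import Cfsg.Agent.H500.AS.K1

/-!
# S3943: the order of `K1` if `C_V(z)` is a nondegenerate quadratic space of dimension three (helper490)
-/

set_option autoImplicit false
set_option linter.unusedSectionVars false
set_option linter.unusedVariables false

namespace Cfsg.Agent.H490.AS

open Module Cfsg.Agent.H518.DghpFix Cfsg.Agent.H518.SU Cfsg.Agent.H489.AS Cfsg.Agent.H500.AS QuadraticMap

universe u v w

section Count

variable {F : Type u} [Field F] [Fintype F] [DecidableEq F]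

theorem card_sq_le (d : F) : ((Finset.univ : Finset F).filter fun c => c ^ 2 = d).card ≤ 2 := by
  by_cases h : ∃ c : F, c ^ 2 = d
  · obtain ⟨c, rfl⟩ := h
    refine (Finset.card_le_card (t := {c, -c}) ?_).trans Finset.card_le_two
    intro x hx
    have h1 : x ^ 2 = c ^ 2 := (Finset.mem_filter.1 hx).2
    rw [Finset.mem_insert, Finset.mem_singleton]
    exact sq_eq_sq_iff_eq_or_eq_neg.1 h1
  · rw [Finset.card_eq_zero.2]
    · omega
    · rw [Finset.filter_eq_empty_iff]
      intro c _ hc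
      exact h ⟨c, hc⟩

theorem card_T1 {a b c : F} (hc : c ≠ 0) (d : F) :
    ((Finset.univ : Finset (F × F × F)).filter fun x => x.1 ^ 2 * a + x.2.1 ^ 2 * b + x.2.2 ^ 2 * c = d).card ≤
      2 * Fintype.card F ^ 2 := by
  set T := (Finset.univ : Finset (F × F × F)).filter fun x => x.1 ^ 2 * a + x.2.1 ^ 2 * b + x.2.2 ^ 2 * c = d with hT
  have h1 := Finset.card_le_mul_card_image (f := fun x : F × F × F => (x.1, x.2.1)) T 2 (fun y hy => by
    refine (Finset.card_le_card_of_injOn (t := (Finset.univ : Finset F).filter fun t =>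
      t ^ 2 = (d - y.1 ^ 2 * a - y.2 ^ 2 * b) / c) (fun x => x.2.2) ?_ ?_).trans (card_sq_le _)
    · intro x hx
      obtain ⟨h2, h3⟩ := Finset.mem_filter.1 hx
      have h4 := (Finset.mem_filter.1 h2).2
      rw [← h3]
      refine Finset.mem_coe.2 (Finset.mem_filter.2 ⟨Finset.mem_univ _, ?_⟩)
      rw [eq_div_iff hc]
      linear_combination h4
    · intro x hx x' hx' hxx
      have h3 := (Finset.mem_filter.1 hx).2
      have h3' := (Finset.mem_filter.1 hx').2
      have h5 : (x.1, x.2.1) = (x'.1, x'.2.1) := h3.trans h3'.symm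
      have h6 := congrArg Prod.fst h5
      have h7 := congrArg Prod.snd h5
      exact Prod.ext h6 (Prod.ext h7 hxx))
  have h2 : (T.image fun x : F × F × F => (x.1, x.2.1)).card ≤ Fintype.card F ^ 2 := by
    refine (Finset.card_le_univ _).trans ?_
    rw [Fintype.card_prod, pow_two]
  exact h1.trans (Nat.mul_le_mul_left 2 h2)

theorem card_T2 (h2 : (2 : F) ≠ 0) {a b : F} (ha : a ≠ 0) (hb : b ≠ 0) :
    ((Finset.univ : Finset (F × F)).filter fun x => x.1 ^ 2 * a + x.2 ^ 2 * b = a).card + 2 ≤ 2 * Fintype.card F := by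
  set T := (Finset.univ : Finset (F × F)).filter fun x => x.1 ^ 2 * a + x.2 ^ 2 * b = a with hT
  have hne : (1 : F) ≠ -1 := by
    intro h
    apply h2
    linear_combination h
  have hcov : T ⊆ {((1 : F), (0 : F)), (-1, 0)} ∪ T.filter fun x => x.1 ≠ 1 ∧ x.1 ≠ -1 := by
    intro x hx
    rw [Finset.mem_union]
    by_cases h : x.1 ≠ 1 ∧ x.1 ≠ -1
    · exact Or.inr (Finset.mem_filter.2 ⟨hx, h⟩)
    · left
      have h3 : x.1 = 1 ∨ x.1 = -1 := by
        by_contra hcon
        push Not at hcon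
        exact h hcon
      have h4 : x.1 ^ 2 = 1 := by
        rcases h3 with h3 | h3 <;> rw [h3] <;> ring
      have h5 := (Finset.mem_filter.1 hx).2
      rw [h4] at h5
      have h6 : x.2 ^ 2 * b = 0 := by linear_combination h5
      have h7 : x.2 = 0 := by
        have := (mul_eq_zero.1 h6).resolve_right hb
        exact pow_eq_zero_iff (two_ne_zero) |>.1 this
      rw [Finset.mem_insert, Finset.mem_singleton]
      rcases h3 with h3 | h3
      · exact Or.inl (Prod.ext h3 h7)
      · exact Or.inr (Prod.ext h3 h7)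
  have h3 : (T.filter fun x => x.1 ≠ 1 ∧ x.1 ≠ -1).card ≤ 2 * (Fintype.card F - 2) := by
    have h4 := Finset.card_le_mul_card_image (f := fun x : F × F => x.1) (T.filter fun x => x.1 ≠ 1 ∧ x.1 ≠ -1) 2
      (fun y hy => by
        refine (Finset.card_le_card_of_injOn (t := (Finset.univ : Finset F).filter fun t =>
          t ^ 2 = (a - y ^ 2 * a) / b) (fun x => x.2) ?_ ?_).trans (card_sq_le _)
        · intro x hx
          obtain ⟨h2, h3⟩ := Finset.mem_filter.1 hx
          have h4 := (Finset.mem_filter.1 (Finset.mem_filter.1 h2).1).2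
          rw [← h3]
          refine Finset.mem_coe.2 (Finset.mem_filter.2 ⟨Finset.mem_univ _, ?_⟩)
          rw [eq_div_iff hb]
          linear_combination h4
        · intro x hx x' hx' hxx
          have h3 : x.1 = y := (Finset.mem_filter.1 hx).2
          have h3' : x'.1 = y := (Finset.mem_filter.1 hx').2
          exact Prod.ext (h3.trans h3'.symm) hxx)
    refine h4.trans (Nat.mul_le_mul_left 2 ?_)
    have h5 : ((T.filter fun x => x.1 ≠ 1 ∧ x.1 ≠ -1).image fun x : F × F => x.1) ⊆
        (Finset.univ.erase 1).erase (-1) := by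
      intro y hy
      obtain ⟨x, hx, rfl⟩ := Finset.mem_image.1 hy
      have h6 := (Finset.mem_filter.1 hx).2
      rw [Finset.mem_erase, Finset.mem_erase]
      exact ⟨h6.2, h6.1, Finset.mem_univ _⟩
    have h6 := Finset.card_le_card h5
    rw [Finset.card_erase_of_mem (Finset.mem_erase.2 ⟨hne.symm, Finset.mem_univ _⟩),
      Finset.card_erase_of_mem (Finset.mem_univ _), Finset.card_univ] at h6
    omega
  have h4 := (Finset.card_le_card hcov).trans (Finset.card_union_le _ _)
  have h5 : ({((1 : F), (0 : F)), (-1, 0)} : Finset (F × F)).card ≤ 2 := Finset.card_le_two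
  have h6 : 2 ≤ Fintype.card F := Fintype.one_lt_card
  omega

end Count

section Orb

variable {F : Type u} [Field F] {V : Type v} [AddCommGroup V] [Module F V] {G : Type w} [Group G]

/-- the stabiliser of a vector -/
def stb (φ : G →* (V →ₗ[F] V)) (e : V) : Subgroup G where
  carrier := {g | φ g e = e}
  one_mem' := by
    show φ 1 e = e
    rw [map_one]
    rfl
  mul_mem' := fun {a b} ha hb => by
    show φ (a * b) e = e
    have ha' : φ a e = e := ha
    have hb' : φ b e = e := hb
    rw [map_mul, Module.End.mul_apply, hb', ha']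
  inv_mem' := fun {a} ha => by
    show φ a⁻¹ e = e
    have ha' : φ a e = e := ha
    have h1 : φ a⁻¹ (φ a e) = e := by
      rw [← Module.End.mul_apply, ← map_mul, inv_mul_cancel, map_one]
      rfl
    rwa [ha'] at h1

theorem mem_stb {φ : G →* (V →ₗ[F] V)} {e : V} {g : G} : g ∈ stb φ e ↔ φ g e = e := Iff.rfl

/-- counting by an orbit -/
theorem card_le_orbit [Finite G] (φ : G →* (V →ₗ[F] V)) (H : Subgroup G) (e : V) (S : Finset V)
    (hS : ∀ g ∈ H, φ g e ∈ S) : Nat.card H ≤ S.card * Nat.card ↥(stb φ e ⊓ H) := by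
  classical
  have h1 : Nat.card ↥(stb φ e ⊓ H) = Nat.card ((stb φ e).subgroupOf H) := by
    rw [← Subgroup.inf_subgroupOf_right]
    exact (Nat.card_congr (Subgroup.subgroupOfEquivOfLe (inf_le_right : stb φ e ⊓ H ≤ H)).toEquiv).symm
  rw [h1, ← ((stb φ e).subgroupOf H).card_mul_index, mul_comm]
  refine Nat.mul_le_mul_right _ ?_
  have h2 : ((stb φ e).subgroupOf H).index = Nat.card (H ⧸ (stb φ e).subgroupOf H) := rfl
  have h3 : S.card = Nat.card S := by rw [Nat.card_eq_fintype_card, Fintype.card_coe]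
  rw [h2, h3]
  have hwd : ∀ a b : H, QuotientGroup.leftRel ((stb φ e).subgroupOf H) a b →
      (⟨φ a e, hS a a.2⟩ : S) = ⟨φ b e, hS b b.2⟩ := by
    intro a b hab
    rw [QuotientGroup.leftRel_apply, Subgroup.mem_subgroupOf] at hab
    have h4 : φ ((a : G)⁻¹ * b) e = e := hab
    apply Subtype.ext
    show φ (a : G) e = φ (b : G) e
    have h5 : φ (a : G) (φ ((a : G)⁻¹ * b) e) = φ (b : G) e := by
      rw [← Module.End.mul_apply, ← map_mul, mul_inv_cancel_left]
    rw [← h5, h4]
  refine Nat.card_le_card_of_injective (Quotient.lift (fun a : H => (⟨φ a e, hS a a.2⟩ : S)) hwd) ?_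
  intro a b
  refine Quotient.inductionOn₂ a b fun a b hab => ?_
  apply Quotient.sound
  show QuotientGroup.leftRel _ a b
  rw [QuotientGroup.leftRel_apply, Subgroup.mem_subgroupOf]
  show φ ((a : G)⁻¹ * b) e = e
  have h4 : φ (a : G) e = φ (b : G) e := congrArg Subtype.val hab
  rw [map_mul, Module.End.mul_apply, ← h4, ← Module.End.mul_apply, ← map_mul, inv_mul_cancel, map_one]
  rfl

end Orb

section Basis

variable {F : Type u} [Field F] {V : Type v} [AddCommGroup V] [Module F V] [FiniteDimensional F V]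

/-- an orthogonal basis of a nondegenerate three-dimensional space -/
theorem exists_orth (h2 : (2 : F) ≠ 0) (Q : QuadraticForm F V) {C : Submodule F V} (h3 : finrank F C = 3)
    (hnd : ∀ v ∈ C, (∀ w ∈ C, polar (⇑Q) v w = 0) → v = 0) :
    ∃ e : Fin 3 → V, (∀ i, e i ∈ C) ∧ (∀ i, Q (e i) ≠ 0) ∧ (∀ i j, i ≠ j → polar (⇑Q) (e i) (e j) = 0) ∧
      ∀ v ∈ C, ∃ a b c : F, v = a • e 0 + b • e 1 + c • e 2 := by
  have : Invertible (2 : F) := invertibleOfNonzero h2
  let B : LinearMap.BilinForm F C := LinearMap.BilinForm.restrict (polarBilin Q) C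
  have hBa : ∀ x y : C, B x y = polar (⇑Q) x y := fun x y => rfl
  have hsym : LinearMap.IsSymm B := ⟨fun x y => by
    rw [hBa, hBa]
    exact polar_comm _ _ _⟩
  obtain ⟨b, hb⟩ := LinearMap.BilinForm.exists_orthogonal_basis hsym
  let b' := b.reindex (finCongr h3)
  have hb' : ∀ i j, i ≠ j → polar (⇑Q) (b' i : V) (b' j) = 0 := by
    intro i j hij
    have := hb (i := (finCongr h3).symm i) (j := (finCongr h3).symm j) (fun h => hij ((finCongr h3).symm.injective h))
    have h4 : B (b ((finCongr h3).symm i)) (b ((finCongr h3).symm j)) = 0 := this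
    rw [hBa] at h4
    rw [Basis.reindex_apply, Basis.reindex_apply]
    exact h4
  have hrep : ∀ (v : V) (hv : v ∈ C), v = b'.repr ⟨v, hv⟩ 0 • (b' 0 : V) + b'.repr ⟨v, hv⟩ 1 • (b' 1 : V) +
      b'.repr ⟨v, hv⟩ 2 • (b' 2 : V) := by
    intro v hv
    have h4 := b'.sum_repr ⟨v, hv⟩
    rw [Fin.sum_univ_three] at h4
    exact (congrArg Subtype.val h4).symm
  refine ⟨fun i => b' i, fun i => (b' i).2, fun i hi => ?_, hb', fun v hv => ⟨_, _, _, hrep v hv⟩⟩
  apply b'.ne_zero i
  apply Subtype.ext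
  refine hnd _ (b' i).2 fun w hw => ?_
  have hii : polar (⇑Q) (b' i : V) (b' i) = 0 := by
    rw [polar_self, hi]
    simp
  have hij : ∀ j, polar (⇑Q) (b' i : V) (b' j) = 0 := by
    intro j
    by_cases h : i = j
    · rw [← h]
      exact hii
    · exact hb' i j h
  rw [hrep w hw, polar_add_right, polar_add_right, polar_smul_right, polar_smul_right, polar_smul_right, hij, hij, hij]
  simp

end Basis

section Main

variable {F : Type u} [Field F] [Fintype F] {V : Type v} [AddCommGroup V] [Module F V] [FiniteDimensional F V]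
  {G : Type w} [Group G] [Finite G]

theorem map_orth {Q : QuadraticForm F V} {e : Fin 3 → V} (he : ∀ i j, i ≠ j → polar (⇑Q) (e i) (e j) = 0) (a b c : F) :
    Q (a • e 0 + b • e 1 + c • e 2) = a ^ 2 * Q (e 0) + b ^ 2 * Q (e 1) + c ^ 2 * Q (e 2) := by
  rw [QuadraticMap.map_add Q, QuadraticMap.map_add Q, QuadraticMap.map_smul, QuadraticMap.map_smul,
    QuadraticMap.map_smul, polar_add_left, polar_smul_left, polar_smul_left, polar_smul_left, polar_smul_right,
    polar_smul_right, polar_smul_right, he 0 1 (by decide), he 0 2 (by decide), he 1 2 (by decide)]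
  simp only [smul_eq_mul]
  ring

/-- `C_V(z)` of dimension three, nondegenerate -/
theorem card_K1_three {φ : G →* (V →ₗ[F] V)} (hφ : Function.Injective φ) {p : ℕ} (hpF : (p : F) ≠ 0) {z : G}
    (hz : z ^ p = 1) (h3 : finrank F (fixS (φ z)) = 3) (h2 : (2 : F) ≠ 0) (Q : QuadraticForm F V)
    (hQ : ∀ g v, Q (φ g v) = Q v)
    (hnd : ∀ v ∈ fixS (φ z), (∀ w ∈ fixS (φ z), polar (⇑Q) v w = 0) → v = 0) :
    Nat.card (K1 φ z) ≤ 2 * Fintype.card F ^ 2 * ((2 * Fintype.card F - 2) * 2) := by
  classical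
  have : Finite F := Finite.of_fintype F
  have : Finite V := Module.finite_of_finite F
  obtain ⟨e, heC, heQ, heo, hrep⟩ := exists_orth h2 Q h3 hnd
  have hpol : ∀ g v w, polar (⇑Q) (φ g v) (φ g w) = polar (⇑Q) v w := by
    intro g v w
    simp only [polar, ← map_add, hQ]
  have hpe : ∀ i, polar (⇑Q) (e i) (e i) = 2 * Q (e i) := by
    intro i
    rw [polar_self, two_smul, two_mul]
  have h22 : ∀ i, polar (⇑Q) (e i) (e i) ≠ 0 := fun i => by
    rw [hpe]
    exact mul_ne_zero h2 (heQ i)
  set H := K1 φ z with hH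
  -- first vector
  have s1 := card_le_orbit φ H (e 0)
    (((Finset.univ : Finset (F × F × F)).filter fun x =>
      x.1 ^ 2 * Q (e 0) + x.2.1 ^ 2 * Q (e 1) + x.2.2 ^ 2 * Q (e 2) = Q (e 0)).image
        fun x => x.1 • e 0 + x.2.1 • e 1 + x.2.2 • e 2) (by
    intro g hg
    obtain ⟨a, b, c, h⟩ := hrep _ (K1_fix hg (heC 0))
    refine Finset.mem_image.2 ⟨(a, b, c), Finset.mem_filter.2 ⟨Finset.mem_univ _, ?_⟩, h.symm⟩
    rw [← map_orth heo, ← h, hQ])
  have s1' := Finset.card_image_le (s := (Finset.univ : Finset (F × F × F)).filter fun x =>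
      x.1 ^ 2 * Q (e 0) + x.2.1 ^ 2 * Q (e 1) + x.2.2 ^ 2 * Q (e 2) = Q (e 0))
      (f := fun x => x.1 • e 0 + x.2.1 • e 1 + x.2.2 • e 2)
  have s1'' := card_T1 (F := F) (a := Q (e 0)) (b := Q (e 1)) (heQ 2) (Q (e 0))
  -- second vector
  have s2 := card_le_orbit φ (stb φ (e 0) ⊓ H) (e 1)
    (((Finset.univ : Finset (F × F)).filter fun x => x.1 ^ 2 * Q (e 1) + x.2 ^ 2 * Q (e 2) = Q (e 1)).image
        fun x => x.1 • e 1 + x.2 • e 2) (by
    rintro g ⟨hg0, hg⟩
    have hg0' : φ g (e 0) = e 0 := hg0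
    obtain ⟨a, b, c, h⟩ := hrep _ (K1_fix hg (heC 1))
    have h4 : polar (⇑Q) (e 0) (φ g (e 1)) = 0 := by
      have h := hpol g (e 0) (e 1)
      rwa [hg0', heo 0 1 (by decide)] at h
    have ha : a = 0 := by
      rw [h, polar_add_right, polar_add_right, polar_smul_right, polar_smul_right, polar_smul_right,
        heo 0 1 (by decide), heo 0 2 (by decide)] at h4
      simp only [smul_eq_mul, mul_zero, add_zero] at h4
      exact (mul_eq_zero.1 h4).resolve_right (h22 0)
    rw [ha, zero_smul, zero_add] at h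
    refine Finset.mem_image.2 ⟨(b, c), Finset.mem_filter.2 ⟨Finset.mem_univ _, ?_⟩, h.symm⟩
    have h5 := map_orth heo 0 b c
    rw [zero_smul, zero_add, ← h, hQ] at h5
    linear_combination -h5)
  have s2' := Finset.card_image_le (s := (Finset.univ : Finset (F × F)).filter fun x =>
      x.1 ^ 2 * Q (e 1) + x.2 ^ 2 * Q (e 2) = Q (e 1)) (f := fun x => x.1 • e 1 + x.2 • e 2)
  have s2'' := card_T2 h2 (heQ 1) (heQ 2)
  -- third vector
  have s3 := card_le_orbit φ (stb φ (e 1) ⊓ (stb φ (e 0) ⊓ H)) (e 2) {e 2, -e 2} (by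
    rintro g ⟨hg1, hg0, hg⟩
    have hg0' : φ g (e 0) = e 0 := hg0
    have hg1' : φ g (e 1) = e 1 := hg1
    obtain ⟨a, b, c, h⟩ := hrep _ (K1_fix hg (heC 2))
    have h4 : polar (⇑Q) (e 0) (φ g (e 2)) = 0 := by
      have h := hpol g (e 0) (e 2)
      rwa [hg0', heo 0 2 (by decide)] at h
    have ha : a = 0 := by
      rw [h, polar_add_right, polar_add_right, polar_smul_right, polar_smul_right, polar_smul_right,
        heo 0 1 (by decide), heo 0 2 (by decide)] at h4
      simp only [smul_eq_mul, mul_zero, add_zero] at h4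
      exact (mul_eq_zero.1 h4).resolve_right (h22 0)
    have h4' : polar (⇑Q) (e 1) (φ g (e 2)) = 0 := by
      have h := hpol g (e 1) (e 2)
      rwa [hg1', heo 1 2 (by decide)] at h
    have hb : b = 0 := by
      rw [h, polar_add_right, polar_add_right, polar_smul_right, polar_smul_right, polar_smul_right,
        heo 1 0 (by decide), heo 1 2 (by decide)] at h4'
      simp only [smul_eq_mul, mul_zero, add_zero, zero_add] at h4'
      exact (mul_eq_zero.1 h4').resolve_right (h22 1)
    rw [ha, hb, zero_smul, zero_smul, zero_add, zero_add] at h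
    have h5 : Q (c • e 2) = Q (e 2) := by rw [← h, hQ]
    rw [QuadraticMap.map_smul] at h5
    have h6 : (c ^ 2 - 1) * Q (e 2) = 0 := by
      simp only [smul_eq_mul] at h5
      linear_combination h5
    have h7 := (mul_eq_zero.1 h6).resolve_right (heQ 2)
    have h8 : c ^ 2 = 1 ^ 2 := by linear_combination h7
    rw [h, Finset.mem_insert, Finset.mem_singleton]
    rcases sq_eq_sq_iff_eq_or_eq_neg.1 h8 with rfl | rfl
    · left; rw [one_smul]
    · right; rw [neg_smul, one_smul])
  have s3' : ({e 2, -e 2} : Finset V).card ≤ 2 := Finset.card_le_two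
  have s4 : Nat.card ↥(stb φ (e 2) ⊓ (stb φ (e 1) ⊓ (stb φ (e 0) ⊓ H))) = 1 := by
    have h1 : stb φ (e 2) ⊓ (stb φ (e 1) ⊓ (stb φ (e 0) ⊓ H)) = ⊥ := by
      rw [Subgroup.eq_bot_iff_forall]
      rintro g ⟨hg2, hg1, hg0, hg⟩
      have hg0' : φ g (e 0) = e 0 := hg0
      have hg1' : φ g (e 1) = e 1 := hg1
      have hg2' : φ g (e 2) = e 2 := hg2
      refine eq_one_of_fix hφ hpF hz hg fun v hv => ?_
      obtain ⟨a, b, c, rfl⟩ := hrep v hv
      rw [map_add, map_add, map_smul, map_smul, map_smul, hg0', hg1', hg2']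
    rw [h1, Subgroup.card_bot]
  rw [s4, mul_one] at s3
  refine s1.trans (Nat.mul_le_mul (s1'.trans s1'') (s2.trans (Nat.mul_le_mul ?_ (s3.trans s3'))))
  exact s2'.trans (by omega)

end Main

end Cfsg.Agent.H490.AS
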